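import Cfsg.Agent.H235.TitsIdx

/-!
# The Tits group has no proper subgroup of index at most 64 (helper242, S3507), abstract part
-/

set_option autoImplicit false

namespace Cfsg.Agent.H242.TwoCyc.TitsIdx

open MulAction Subgroup Cfsg.Agent.H235.TitsIdx Cfsg.Agent.H235.TitsIdx.Facts Cfsg.Agent.H87.TitsAbs.Dat

universe u

variable {G : Type u} [Group G] [Finite G] (F : Facts G) {Ω : Type*} [Fintype Ω] [MulAction G Ω]
  [FaithfulSMul G Ω]

theorem deg_chk : ((List.range 65).filter fun n => decide (42 ≤ n) && decide (17971200 % n = 0)) =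
    [45, 48, 50, 52, 54, 60, 64] := by
  decide +kernel

/-- `⟨x⟩` is normalized by `t` -/
theorem t_mem (D : H87.TitsAbs.Dat G) {P : Sylow 13 G} (hP : (P : Subgroup G) = zpowers D.x) :
    D.t ∈ normalizer ((P : Subgroup G) : Set G) := by
  have h7 : (P : Subgroup G).map (MulAut.conj D.t).toMonoidHom = (P : Subgroup G) := by
    apply Subgroup.eq_of_le_of_card_ge
    · rintro _ ⟨y, hy, rfl⟩
      have hy' : y ∈ zpowers D.x := by rw [← hP]; exact hy
      obtain ⟨k, rfl⟩ := mem_zpowers_iff.1 hy'
      show D.t * D.x ^ k * D.t⁻¹ ∈ (P : Subgroup G)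
      rw [← conj_zpow, D.txt, hP]
      exact zpow_mem (pow_mem (mem_zpowers _) _) _
    · exact (Nat.card_congr ((P : Subgroup G).equivMapOfInjective _ (MulAut.conj D.t).injective).toEquiv).le
  rw [mem_normalizer_iff]
  intro x
  constructor
  · intro hx
    have : (MulAut.conj D.t).toMonoidHom x ∈ (P : Subgroup G).map (MulAut.conj D.t).toMonoidHom := ⟨x, hx, rfl⟩
    rw [h7] at this
    exact this
  · intro hx
    have hx' : D.t * x * D.t⁻¹ ∈ (P : Subgroup G).map (MulAut.conj D.t).toMonoidHom := by rw [h7]; exact hx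
    obtain ⟨y, hy, hyx⟩ := hx'
    have : y = x := (MulAut.conj D.t).injective hyx
    rwa [← this]

omit [Finite G] [FaithfulSMul G Ω] in
/-- fixed points of `t`: at most the fixed points of `x` and one point in each `13`-cycle of `x` -/
theorem fx_le (D : H87.TitsAbs.Dat G) {P : Subgroup G} (hP : P = zpowers D.x) :
    ∃ a, fx Ω D.t ≤ a + Nat.card (fixedPoints P Ω) ∧ 13 * a ≤ Nat.card Ω := by
  classical
  refine ⟨Nat.card {w : Ω // D.t • w = w ∧ D.x • w ≠ w}, ?_, ?_⟩
  · unfold fx
    have h1 : (fixedBy Ω D.t) ⊆ {w : Ω | D.t • w = w ∧ D.x • w ≠ w} ∪ fixedPoints P Ω := by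
      intro w hw
      by_cases h : D.x • w = w
      · right
        rintro ⟨g, hg⟩
        rw [hP] at hg
        have h2 : D.x ∈ stabilizer G w := h
        have h3 : zpowers D.x ≤ stabilizer G w := by rwa [zpowers_le]
        exact h3 hg
      · exact Or.inl ⟨hw, h⟩
    rw [Nat.card_coe_set_eq]
    refine (Set.ncard_le_ncard h1 (Set.toFinite _)).trans ((Set.ncard_union_le _ _).trans ?_)
    rw [← Nat.card_coe_set_eq, ← Nat.card_coe_set_eq]
    exact le_rfl
  · rw [Nat.card_eq_fintype_card (α := Ω)]
    exact D.mul_card_le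

include F in
/-- **The degree of a faithful transitive action is at least 65.** -/
theorem le_card [IsPretransitive G Ω] [Nonempty Ω] (hN : ∃ P : Sylow 13 G,
    Nat.card (normalizer ((P : Subgroup G) : Set G)) = 78) : 65 ≤ Nat.card Ω := by
  have f13 : Fact (Nat.Prime 13) := ⟨by norm_num⟩
  by_contra hlt
  rw [not_le] at hlt
  have h42 := F.le_card (Ω := Ω)
  have hd : Nat.card Ω ∣ 17971200 := by
    obtain ⟨ω⟩ : Nonempty Ω := inferInstance
    rw [← F.card, ← index_stabilizer_of_transitive (G := G) ω]
    exact Subgroup.index_dvd_card _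
  have hmem : Nat.card Ω ∈ ((List.range 65).filter fun n => decide (42 ≤ n) && decide (17971200 % n = 0)) := by
    rw [List.mem_filter]
    refine ⟨List.mem_range.2 hlt, ?_⟩
    simp only [Bool.and_eq_true, decide_eq_true_eq]
    exact ⟨h42, Nat.mod_eq_zero_of_dvd hd⟩
  rw [deg_chk] at hmem
  simp only [List.mem_cons, List.not_mem_nil, or_false] at hmem
  obtain ⟨D⟩ := F.dat
  obtain ⟨P, hP⟩ := F.exists_sylow_x D
  have hcN : Nat.card (normalizer ((P : Subgroup G) : Set G)) = 78 := by
    obtain ⟨P', hP'⟩ := hN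
    have h1 : Nat.card (Sylow 13 G) = (normalizer ((P' : Subgroup G) : Set G)).index := P'.card_eq_index_normalizer
    have h2 : Nat.card (Sylow 13 G) = (normalizer ((P : Subgroup G) : Set G)).index := P.card_eq_index_normalizer
    have h3 := (normalizer ((P' : Subgroup G) : Set G)).card_mul_index
    have h4 := (normalizer ((P : Subgroup G) : Set G)).card_mul_index
    rw [← h1] at h3
    rw [← h2, ← h3, hP'] at h4
    exact Nat.eq_of_mul_eq_mul_right (Nat.card_pos) h4
  obtain ⟨hr1, hr2⟩ := F.fix13 (Ω := Ω) D hP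
  obtain ⟨a, ha1, ha2⟩ := fx_le (Ω := Ω) D hP
  obtain ⟨k, hk⟩ := D.burnside (Ω := Ω)
  have hlt3 := D.fx_lt (Ω := Ω)
  rw [← Nat.card_eq_fintype_card] at hk hlt3
  set r := Nat.card (fixedPoints (P : Subgroup G) Ω) with hr
  set f := fx Ω D.t with hf
  -- `r` divides `6` or is `0`
  have hr6 : r = 0 ∨ ∃ ω : Ω, r * Nat.card ↥((stabilizer G ω).subgroupOf (normalizer ((P : Subgroup G) : Set G))) = 78 ∧
      13 ∣ Nat.card ↥((stabilizer G ω).subgroupOf (normalizer ((P : Subgroup G) : Set G))) := by
    by_cases h : (fixedPoints (P : Subgroup G) Ω).Nonempty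
    · right
      obtain ⟨ω, hω⟩ := h
      refine ⟨ω, ?_, ?_⟩
      · rw [← hcN]
        exact card_fix P ω fun g hg => hω ⟨g, hg⟩
      · have hx : D.x ∈ (P : Subgroup G) := by rw [hP]; exact mem_zpowers _
        have h1 : (⟨D.x, le_normalizer hx⟩ : normalizer ((P : Subgroup G) : Set G)) ∈
            (stabilizer G ω).subgroupOf (normalizer ((P : Subgroup G) : Set G)) := by
          rw [mem_subgroupOf]
          exact hω ⟨D.x, hx⟩
        have h2 := Subgroup.orderOf_dvd_natCard _ h1
        rwa [← Subgroup.orderOf_coe, order_x D] at h2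
    · left
      rw [hr, Set.not_nonempty_iff_eq_empty.1 h]
      simp
  rcases hr6 with h0 | ⟨ω, h1, h2⟩
  · rw [h0] at hr2
    omega
  · obtain ⟨c, hc⟩ := h2
    have hrc : r * c = 6 := by
      rw [hc] at h1
      nlinarith
    have hr6 : r ≤ 6 := by
      have : c ≠ 0 := by
        rintro rfl
        omega
      nlinarith [Nat.pos_of_ne_zero this]
    rcases hmem with h | h | h | h | h | h | h <;> rw [h] at hr2 hk hlt3 ha2
    · omega
    · interval_cases r <;> omega
    · interval_cases r <;> omega
    · interval_cases r <;> omega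
    · -- the degree 54
      have hr2' : r = 2 := by interval_cases r <;> omega
      have hc3 : c = 3 := by
        rw [hr2'] at hrc
        omega
      have h5 : Nat.card ↥(stabilizer G ω) * 54 = 17971200 := by
        have := (stabilizer G ω).card_mul_index
        rw [index_stabilizer_of_transitive, h, F.card] at this
        exact this
      have h6 := card_subgroupOf_dvd (stabilizer G ω) (normalizer ((P : Subgroup G) : Set G))
      rw [hc, hc3, show Nat.card ↥(stabilizer G ω) = 332800 by omega] at h6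
      revert h6; norm_num
    · interval_cases r <;> omega
    · interval_cases r <;> omega

/-- **Proper subgroups have index at least 65.** -/
theorem le_index [IsSimpleGroup G] (F : Facts G) (hN : ∃ P : Sylow 13 G,
    Nat.card (normalizer ((P : Subgroup G) : Set G)) = 78) {L : Subgroup G}
    (hL : L ≠ ⊤) : 65 ≤ L.index := by
  have hcore : L.normalCore = ⊥ := by
    rcases IsSimpleGroup.eq_bot_or_eq_top_of_normal L.normalCore L.normalCore_normal with h | h
    · exact h
    · exact absurd (eq_top_iff.2 (h ▸ L.normalCore_le)) hL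
  have hf : FaithfulSMul G (G ⧸ L) := by
    refine ⟨fun {a b} hab => ?_⟩
    have h1 : a⁻¹ * b ∈ L.normalCore := by
      rw [Subgroup.normalCore_eq_ker, MonoidHom.mem_ker]
      ext w
      show (a⁻¹ * b) • w = w
      rw [mul_smul, ← hab w, inv_smul_smul]
    rw [hcore, Subgroup.mem_bot, inv_mul_eq_one] at h1
    exact h1
  have := Fintype.ofFinite (G ⧸ L)
  exact le_card F (Ω := G ⧸ L) hN

end Cfsg.Agent.H242.TwoCyc.TitsIdx
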