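import Cfsg.Agent.KFacts.TwF4.Irr

/-!
# 2-elements of `²F₄(q)` have order at most 16 (helper242, S3507)

`U = J 1 8 = Q X_8`, `X_8` has exponent 4, `Q / Q2` and `Q2` have exponent 2.
-/

set_option autoImplicit false
set_option linter.unusedSectionVars false

namespace Cfsg.Agent.H242.TwoCyc.TwFTwo

open Cfsg.Agent.SplitTwo Cfsg.Agent.SplitTwo.ZS Cfsg.Agent.TitsThree.RankTwoZ Cfsg.Agent.KFacts.TwF4.Arc
open Cfsg.Agent.KFacts.TwF4 Cfsg.Agent.KFacts.TwF4.Inv Cfsg.Agent.KFacts.TwF4.SylU Cfsg.Agent.KFacts.TwF4.Perf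
open Cfsg.Agent.KFacts.TwF4.Layers Cfsg.Agent.KFacts.TwF4.Irr
open scoped Pointwise commutatorElement

universe u

variable {F : Type*} [Field F] {σ : F →+* F} {G : Type u} [Group G] (S : Full σ G)

/-- elements of `Q2` are involutions -/
theorem sq_Q2 {z : G} (hz : z ∈ S.Q2) : z * z = 1 := by
  let K : Subgroup G :=
    { carrier := {z | z ∈ S.Q2 ∧ z * z = 1}
      one_mem' := ⟨one_mem _, one_mul _⟩
      mul_mem' := by
        rintro a b ⟨ha, ha2⟩ ⟨hb, hb2⟩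
        refine ⟨mul_mem ha hb, ?_⟩
        calc a * b * (a * b) = a * (b * a) * b := by group
          _ = a * (a * b) * b := by rw [Q2_comm S hb ha]
          _ = (a * a) * (b * b) := by group
          _ = 1 := by rw [ha2, hb2, one_mul]
      inv_mem' := by
        rintro a ⟨ha, ha2⟩
        refine ⟨inv_mem ha, ?_⟩
        rw [← mul_inv_rev, ha2, inv_one] }
  have h : S.Q2 ≤ K := by
    refine S.Q2_le (fun u => ⟨S.q2_1 u, ?_⟩) (fun t => ⟨S.q2_2 t, ?_⟩) (fun u => ⟨S.q2_3 u, ?_⟩)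
      (fun t => ⟨S.q2_4 t, ?_⟩) (fun u => ⟨S.q2_5 u, ?_⟩)
    · exact inv_eq_iff_mul_eq_one.1 (z_inv S 1 u)
    · exact inv_eq_iff_mul_eq_one.1 (o_inv S 1 t)
    · exact inv_eq_iff_mul_eq_one.1 (z_inv S 2 u)
    · exact inv_eq_iff_mul_eq_one.1 (o_inv S 2 t)
    · exact inv_eq_iff_mul_eq_one.1 (z_inv S 3 u)
  exact (h hz).2

/-- squares of elements of `Q` are in `Q2` -/
theorem sq_Q {y : G} (hy : y ∈ S.Q) : y * y ∈ S.Q2 := by
  let K : Subgroup G :=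
    { carrier := {y | y ∈ S.Q ∧ y * y ∈ S.Q2}
      one_mem' := ⟨one_mem _, by rw [one_mul]; exact one_mem _⟩
      mul_mem' := by
        rintro a b ⟨ha, ha2⟩ ⟨hb, hb2⟩
        refine ⟨mul_mem ha hb, ?_⟩
        have hc : b⁻¹ * a⁻¹ * b * a ∈ S.Q2 := by
          rw [← comm_Q]
          have h1 := Subgroup.commutator_mem_commutator (inv_mem hb) (inv_mem ha)
          rw [commutatorElement_def, inv_inv, inv_inv] at h1
          exact h1
        have e : a * b * (a * b) = (a * a) * (b * b) * (b⁻¹ * (b⁻¹ * a⁻¹ * b * a) * b) := by group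
        rw [e]
        have hbP : b⁻¹ ∈ S.PL := inv_mem (J_mono (by norm_num) (by norm_num) hb)
        have h2 := Q2_norm' S hbP hc
        rw [inv_inv] at h2
        exact mul_mem (mul_mem ha2 hb2) h2
      inv_mem' := by
        rintro a ⟨ha, ha2⟩
        refine ⟨inv_mem ha, ?_⟩
        rw [← mul_inv_rev]
        exact inv_mem ha2 }
  have hQ : ∀ {k : ℤ} {x : G}, 1 ≤ k → k ≤ 7 → x ∈ S.XZ k → x ∈ S.Q := fun h1 h2 hx => mem_J hx h1 h2
  have h : S.Q ≤ K := by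
    refine J_le fun k h1 h2 x hx => ⟨hQ h1 h2 hx, ?_⟩
    have hk : k = 1 ∨ k = 2 ∨ k = 3 ∨ k = 4 ∨ k = 5 ∨ k = 6 ∨ k = 7 := by omega
    have ho : ∀ a t, S.o a t * S.o a t = 1 := fun a t => inv_eq_iff_mul_eq_one.1 (o_inv S a t)
    rcases hk with rfl | rfl | rfl | rfl | rfl | rfl | rfl
    · obtain ⟨t, rfl⟩ := (mem_X1 S).1 hx
      rw [ho]; exact one_mem _
    · obtain ⟨p, u, rfl⟩ := (mem_X2 S).1 hx
      rw [e_sq]; exact S.q2_1 _
    · obtain ⟨t, rfl⟩ := (mem_X3 S).1 hx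
      rw [ho]; exact one_mem _
    · obtain ⟨p, u, rfl⟩ := (mem_X4 S).1 hx
      rw [e_sq]; exact S.q2_3 _
    · obtain ⟨t, rfl⟩ := (mem_X5 S).1 hx
      rw [ho]; exact one_mem _
    · obtain ⟨p, u, rfl⟩ := (mem_X6 S).1 hx
      rw [e_sq]; exact S.q2_5 _
    · obtain ⟨t, rfl⟩ := (mem_X7 S).1 hx
      rw [ho]; exact one_mem _
  exact (h hy).2

/-- fourth powers of elements of `U` are in `Q` -/
theorem pow_four_U {x : G} (hx : x ∈ J S.XZ 1 8) : x ^ 4 ∈ S.Q := by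
  obtain ⟨a, ha, q, hq, rfl⟩ := S.zsys8.split_rl (a := 1) (b := 8) (by norm_num) (by norm_num) hx
  have hq' : q ∈ S.Q := J_mono le_rfl (by norm_num) hq
  have haP : a ∈ S.PL := mem_J ha (by norm_num) (by norm_num)
  have n1 : ∀ {g y : G}, g ∈ S.PL → y ∈ S.Q → g⁻¹ * y * g ∈ S.Q := by
    intro g y hg hy
    have h1 := Q_norm S (inv_mem hg) hy
    rwa [inv_inv] at h1
  have e : (a * q) ^ 4 = a ^ 4 * (((a ^ 3)⁻¹ * q * a ^ 3) * (((a ^ 2)⁻¹ * q * a ^ 2) * ((a⁻¹ * q * a) * q))) := by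
    simp only [pow_succ, pow_zero, one_mul]
    group
  have ha4 : a ^ 4 = 1 := by
    obtain ⟨p, u, rfl⟩ := (mem_X8 S).1 ha
    rw [show 4 = 2 * 2 by norm_num, pow_mul, pow_two (S.e 4 p u), e_sq, pow_two]
    exact inv_eq_iff_mul_eq_one.1 (z_inv S 4 _)
  rw [e, ha4, one_mul]
  exact mul_mem (n1 (pow_mem haP 3) hq') (mul_mem (n1 (pow_mem haP 2) hq') (mul_mem (n1 haP hq') hq'))

/-- **`U` has exponent (dividing) 16** -/
theorem pow_sixteen_U {x : G} (hx : x ∈ J S.XZ 1 8) : x ^ 16 = 1 := by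
  have h1 := pow_four_U S hx
  have h2 := sq_Q S h1
  have h3 := sq_Q2 S h2
  calc x ^ 16 = (x ^ 4 * x ^ 4) * (x ^ 4 * x ^ 4) := by group
    _ = 1 := h3

/-- 2-elements have order at most 16 -/
theorem pow_sixteen [Finite G] (hP : ∃ P : Sylow 2 G, (P : Subgroup G) = J S.XZ 1 8) {x : G} {k : ℕ}
    (hx : x ^ 2 ^ k = 1) : x ^ 16 = 1 := by
  have hfact : Fact (Nat.Prime 2) := ⟨Nat.prime_two⟩
  obtain ⟨P, hP⟩ := hP
  have h2 : IsPGroup 2 (Subgroup.zpowers x) := by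
    rintro ⟨y, hy⟩
    obtain ⟨n, rfl⟩ := Subgroup.mem_zpowers_iff.1 hy
    refine ⟨k, Subtype.ext ?_⟩
    show (x ^ n) ^ (2 ^ k) = 1
    rw [← zpow_natCast, ← zpow_mul, mul_comm, zpow_mul, zpow_natCast, hx, one_zpow]
  obtain ⟨P', hP'⟩ := h2.exists_le_sylow
  obtain ⟨g, hg⟩ := MulAction.exists_smul_eq G P' P
  have h3 : g * x * g⁻¹ ∈ J S.XZ 1 8 := by
    rw [← hP, ← hg]
    show g * x * g⁻¹ ∈ ((MulAut.conj g • (P' : Subgroup G) : Subgroup G))
    exact Subgroup.smul_mem_pointwise_smul x (MulAut.conj g) _ (hP' (Subgroup.mem_zpowers x))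
  have h4 := pow_sixteen_U S h3
  rw [conj_pow, mul_inv_eq_one] at h4
  calc x ^ 16 = g⁻¹ * (g * x ^ 16) := by group
    _ = 1 := by rw [h4]; group

end Cfsg.Agent.H242.TwoCyc.TwFTwo
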